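import Groth.Agent.Ega2.TwistInv
import Groth.Agent.Sga5.ProjSmooth
import Groth.Agent.Ega3B.ProjFrame
import Groth.Agent.Ega3B.ProjProper
import Groth.Agent.PerfA.PerfLocal
import Groth.Agent.S1824
import Groth.Agent.Ega1.ADualOpen

/-!
# The dualizing complex of projective space on the standard chart, over any ring
-/

set_option autoImplicit false

universe u

open CategoryTheory CategoryTheory.Limits AlgebraicGeometry Pretriangulated

attribute [local instance] HasDerivedCategory.standard

namespace Groth.Agent.Dual.H354.Chart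

open Groth.Agent.Dcoh.DerSch Groth.Agent.Ega1.ADualUniv Groth.Agent.Ega1.ADualOpen
open Groth.Agent.PerfA.Restrict (restrictD)
open Groth.Agent.Ega2.TensHom Groth.Agent.Ega2.TwistInv Groth.Agent.Ega2.TwistMul

section Gen

variable {X : Scheme.{u}}

/-- A module with a generator over `U` is trivial over `U`. -/
theorem nonempty_restrict_ι (M : X.Modules) (U : X.Opens) (e : Γ(M, U)) (he : IsGen M U e) :
    Nonempty (M.restrict U.ι ≅ Coh.structureModule (U : Scheme.{u})) := by
  have := isIso_unitHom _ _ he.restrict_ι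
  exact ⟨(asIso (unitHom (M.restrict U.ι) ((M.restrictAppIso U.ι ⊤).inv
      (M.presheaf.map (homOfLE (U.ι_image_le ⊤)).op e)))).symm⟩

/-- Transport along an open immersion with range `U`. -/
theorem nonempty_restrict {W : Scheme.{u}} (M : X.Modules) (l : W ⟶ X) [IsOpenImmersion l]
    (e : Γ(M, l.opensRange)) (he : IsGen M l.opensRange e) :
    Nonempty (M.restrict l ≅ Coh.structureModule W) := by
  obtain ⟨i⟩ := nonempty_restrict_ι M l.opensRange e he
  have h : l.isoOpensRange.hom ≫ l.opensRange.ι = l := l.isoOpensRange_hom_ι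
  exact ⟨(Scheme.Modules.restrictFunctorCongr h.symm).app M ≪≫
    (Scheme.Modules.restrictFunctorComp l.isoOpensRange.hom l.opensRange.ι).app M ≪≫
    (Scheme.Modules.restrictFunctor l.isoOpensRange.hom).mapIso i ≪≫
    Scheme.Modules.restrictUnitIso _⟩

end Gen

/-- `O(d)` is trivial on the standard chart. -/
theorem nonempty_chart_twist (n : ℕ) (R : Type u) [CommRing R] (d : ℤ) (i : Fin (n + 1)) :
    Nonempty ((Twist.twistProjSpace n R d).restrict (Sga5.ProjSmooth.chart n R i) ≅
      Coh.structureModule (Spec (CommRingCat.of (MvPolynomial (Fin n) R)))) := by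
  have hU : ∀ x ∈ (Sga5.ProjSmooth.chart n R i).opensRange,
      (Ega3B.ProjFrame.coord n R i).1 ∉
        (x : ProjectiveSpectrum (CohB1.polyGrading n R)).asHomogeneousIdeal := by
    intro x hx
    rw [Sga5.ProjSmooth.opensRange_chart] at hx
    exact hx
  exact nonempty_restrict (Twist.twistProjSpace n R d) (Sga5.ProjSmooth.chart n R i)
    (powSec (Ega3B.ProjFrame.coord n R i) d _ hU) (isGen_powSec (Ega3B.ProjFrame.coord n R i) d _ hU)

/-- The universal object of `P^n_R` on the standard chart. -/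
theorem nonempty_chart (n : ℕ) (R : Type u) [CommRing R] [DCoh.HasRpush (CohB1.ProjSpace.toSpec n R)]
    (L : DCoh.D (CohB1.ProjSpace n R)) (hL : Univ (CohB1.ProjSpace.toSpec n R)
      (DCoh.inD (Spec (CommRingCat.of R)) (Coh.structureModule (Spec (CommRingCat.of R)))) L)
    (i : Fin (n + 1)) :
    Nonempty ((restrictD (Sga5.ProjSmooth.chart n R i)).obj L ≅
      (DCoh.inD (Spec (CommRingCat.of (MvPolynomial (Fin n) R)))
        (Coh.structureModule (Spec (CommRingCat.of (MvPolynomial (Fin n) R)))))⟦(n : ℤ)⟧) := by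
  let π := CohB1.ProjSpace.toSpec n R
  have hπ : IsProper π := Ega3B.ProjProper.isProper_toSpec n R
  have hP1 : CompactSpace (CohB1.ProjSpace n R) := QuasiCompact.compactSpace_of_compactSpace π
  have hP2 : QuasiSeparatedSpace (CohB1.ProjSpace n R) := quasiSeparatedSpace_of_quasiSeparated π
  have hf : ∀ N : DCoh.D (CohB1.ProjSpace n R), DCoh.IsQCohD N →
      DCoh.IsQCohD ((DCoh.Rpush π).obj N) := fun N hN => S0998.result π N hN
  have := S1766.result _ _ π hf
  let adj := Adjunction.ofIsLeftAdjoint (ObjectProperty.lift DCoh.IsQCohD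
    (ObjectProperty.ι DCoh.IsQCohD ⋙ DCoh.Rpush π) (fun K => hf K.obj K.property))
  let O : DCoh.DQCoh (Spec (CommRingCat.of R)) := ⟨DCoh.inD (Spec (CommRingCat.of R))
    (Coh.structureModule (Spec (CommRingCat.of R))),
      PerfA.QCohD.isQCohD_inD _ (Ega2.QCohLocal.isQCoh_structureModule _)⟩
  obtain ⟨e⟩ := S1824.result n R hf _ adj O ⟨Iso.refl _⟩
  obtain ⟨e'⟩ := (univ_of_adj adj O).unique hL
  obtain ⟨t⟩ := nonempty_chart_twist n R (-((n : ℤ) + 1)) i
  exact ⟨(restrictD (Sga5.ProjSmooth.chart n R i)).mapIso (e'.symm ≪≫ e) ≪≫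
    ((restrictD (Sga5.ProjSmooth.chart n R i)).commShiftIso (n : ℤ)).app _ ≪≫
    (shiftFunctor _ (n : ℤ)).mapIso (PerfA.PerfLocal.restrictInD _ _ ≪≫
      (DerivedCategory.singleFunctor _ 0).mapIso t)⟩

end Groth.Agent.Dual.H354.Chart
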