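import Groth.Agent.LoccohB.AdStruct
import Groth.Agent.PerfA.QCohD
import Groth.Agent.Ega2.QCohLocal

/-!
# The structure sheaf is universal along the diagonal

`univ_diagonal`: if `L` is universal for `(pr₂ : X ×_S X ⟶ X, O_X)` then `O_X` is universal for `(Δ, L)`.
-/

set_option autoImplicit false

universe u

open CategoryTheory CategoryTheory.Limits AlgebraicGeometry Pretriangulated

attribute [local instance] HasDerivedCategory.standard

namespace Groth.Agent.Dual.H354.Diag

open Groth.Agent.Dcoh.DerSch Groth.Agent.Ega1.ADualUniv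
open Groth.Agent.Ega1.ADualRestrict Groth.Agent.Ega1.ADualOpen Groth.Agent.LoccohB.AdStruct

variable {X S : Scheme.{u}}

/-- Universal pairs along a section. -/
theorem univ_section {Y : Scheme.{u}} [CompactSpace X] [QuasiSeparatedSpace X] [CompactSpace Y]
    [QuasiSeparatedSpace Y] (s : X ⟶ Y) (p : Y ⟶ X) (h : s ≫ p = 𝟙 X) [DCoh.HasRpush s]
    [DCoh.HasRpush p] {K : DCoh.D X} (hK : DCoh.IsQCohD K) {L : DCoh.D Y} (hL : Univ p K L) :
    Univ s L K := by
  obtain ⟨N, hN⟩ := exists_univ s L hL.qcoh
  have := hasRpush (s ≫ p)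
  have := hasRpush (𝟙 X)
  have h2 : Univ (𝟙 X) K N := Univ.of_eq h (Univ.comp' s p hL hN)
  obtain ⟨e⟩ := h2.unique (Univ.id hK)
  exact hN.of_iso_left e hK

/-- `O_X` is universal along the diagonal. -/
theorem univ_diagonal [CompactSpace X] [QuasiSeparatedSpace X] (f : X ⟶ S) [QuasiCompact f]
    [QuasiSeparated f] [DCoh.HasRpush (pullback.diagonal f)] [DCoh.HasRpush (pullback.snd f f)]
    {L : DCoh.D (pullback f f)}
    (hL : Univ (pullback.snd f f) (DCoh.inD X (Coh.structureModule X)) L) :
    Univ (pullback.diagonal f) L (DCoh.inD X (Coh.structureModule X)) := by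
  have h1 : CompactSpace (pullback f f : Scheme.{u}) :=
    QuasiCompact.compactSpace_of_compactSpace (pullback.fst f f)
  have h2 : QuasiSeparatedSpace (pullback f f : Scheme.{u}) :=
    quasiSeparatedSpace_of_quasiSeparated (pullback.fst f f)
  exact univ_section (pullback.diagonal f) (pullback.snd f f) (pullback.diagonal_snd f)
    (PerfA.QCohD.isQCohD_inD _ (Ega2.QCohLocal.isQCoh_structureModule X)) hL

end Groth.Agent.Dual.H354.Diag
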