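import Groth.Agent.PerfC.FinitePush
import Groth.Agent.Flat2H.PCBridge
import Groth.Agent.Flat2H.FlatPC3
import Groth.Agent.PerfA.GB3Ring
import Groth.Agent.S2066

/-!
# Closed immersions between flat locally finitely presented schemes are pseudo-coherent

`pc_push_closed`: if `W` and `U` are flat and locally of finite presentation over `Spec R` and
`s : U ⟶ W` is a closed immersion over `Spec R` then `s_* O_U` is pseudo-coherent.
-/

set_option autoImplicit false

universe u

open AlgebraicGeometry CategoryTheory CategoryTheory.Limits Opposite TopologicalSpace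

attribute [local instance] HasDerivedCategory.standard

namespace Groth.Agent.Dual.H354.FlatClosed

open Groth.Agent.PerfA.Restrict Groth.Agent.PerfC.PcLocal Groth.Agent.PerfC.FinitePush

section Ring

/-- A surjection between flat finitely presented algebras is pseudo-coherent. -/
theorem pcMap_of_flat_flat {R B A : Type u} [CommRing R] [CommRing B] [CommRing A] (ρ : R →+* B)
    (σ : B →+* A) (hσ : Function.Surjective σ) (h1 : ρ.Flat) (h2 : ρ.FinitePresentation)
    (h3 : (σ.comp ρ).Flat) (h4 : (σ.comp ρ).FinitePresentation) : Flat2H.PCMap σ := by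
  let _ : Algebra R B := ρ.toAlgebra
  let _ : Algebra R A := (σ.comp ρ).toAlgebra
  have : Module.Flat R B := h1
  have : Module.Flat R A := h3
  have : Algebra.FinitePresentation R B := h2
  have : Algebra.FinitePresentation R A := h4
  have : Algebra.FiniteType R B := Algebra.FiniteType.of_finitePresentation
  obtain ⟨n, ψ, hψ⟩ := Algebra.FiniteType.iff_quotient_mvPolynomial''.1 this
  let σ' : B →ₐ[R] A := { σ with commutes' := fun r => rfl }
  have e1 : Flat2H.PCMap ψ.toRingHom := Flat2H.pcMap_of_flat ψ hψ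
  have e2 : Flat2H.PCMap (σ'.comp ψ).toRingHom := Flat2H.pcMap_of_flat (σ'.comp ψ) (hσ.comp hψ)
  exact e1.of_comp e2

end Ring

section Spec

variable {R S : CommRingCat.{u}} (φ : R ⟶ S)

/-- `Spec(φ)_* O` is pseudo-coherent if `S` is pseudo-coherent over `R`. -/
theorem pc_push_spec (h : Flat2H.PCMap φ.hom) (m : ℤ) :
    DCoh.IsPseudoCoherentD m (DCoh.inD (Spec R)
      ((Scheme.Modules.pushforward (Spec.map φ)).obj (Coh.structureModule (Spec S)))) := by
  let M : ModuleCat.{u} R := (ModuleCat.restrictScalars.{u} φ.hom).obj (ModuleCat.of S S)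
  have e1 : (Scheme.Modules.pushforward (Spec.map φ)).obj (Coh.structureModule (Spec S)) ≅
      (tilde.functor R).obj M :=
    (Scheme.Modules.pushforward (Spec.map φ)).mapIso tildeSelf.symm ≪≫
      (PerfC.TildePush.tildePushIso φ).app (ModuleCat.of S S)
  have h0 : Flat2H.FPInf R M := by
    let _ := φ.hom.toAlgebra
    have h2 : Flat2H.FPInf R S := h
    exact h2
  have h1 : DRing.IsPseudoCoherent' R (Dual.inD R M) :=
    (Flat2H.PCBridge.isPseudoCoherentModule'_iff M).2 h0
  have h2 : DRing.IsPseudoCoherent R m (Dual.inD R M) := (S2066.result _).1.2 h1 m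
  exact pc_of_iso (((tilde.functor R).mapDerivedCategorySingleFunctor 0).app M ≪≫
    (DerivedCategory.singleFunctor _ 0).mapIso e1.symm)
    ((PerfA.GB3.isPseudoCoherentD_tildeD_iff R _ m).2 h2)

end Spec

section Scheme

variable {U W : Scheme.{u}} (s : U ⟶ W)

/-- Direct image of the structure sheaf along an affine morphism, pseudo-coherence on affines. -/
theorem pc_push_of_affine [IsAffineHom s]
    (h : ∀ y : W, ∃ (V : W.Opens) (_ : IsAffineOpen V), y ∈ V ∧ Flat2H.PCMap (s.app V).hom) (m : ℤ) :
    DCoh.IsPseudoCoherentD m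
      (DCoh.inD W ((Scheme.Modules.pushforward s).obj (Coh.structureModule U))) := by
  refine pc_of_cover _ fun y => ?_
  obtain ⟨V, hV, hy, hV'⟩ := h y
  obtain ⟨z, hz⟩ : y ∈ Set.range hV.fromSpec := by rw [hV.range_fromSpec]; exact hy
  refine ⟨_, hV.fromSpec, inferInstance, z, hz, ?_⟩
  refine pc_of_iso (Iso.symm ?_) (pc_push_spec (s.app V) hV' m)
  refine PerfA.PerfLocal.restrictInD hV.fromSpec _ ≪≫
    (DerivedCategory.singleFunctor _ 0).mapIso ?_
  exact (Dcoh.PushRestrict.pushRestrictIsoOfIsPullback s (Spec.map (s.app V)) _ _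
    (isPullback_fromSpec s hV)).app _ ≪≫
      (Scheme.Modules.pushforward (Spec.map (s.app V))).mapIso
        (Scheme.Modules.restrictUnitIso _)

lemma app_surjective [IsClosedImmersion s] (V : W.Opens) (hV : IsAffineOpen V) :
    Function.Surjective (s.app V).hom := by
  exact Scheme.Hom.app_surjective s V hV

/-- Closed immersions between flat locally finitely presented schemes. -/
theorem pcMap_app_closed [IsClosedImmersion s] {S : Scheme.{u}} (w : W ⟶ S)
    [Flat w] [LocallyOfFinitePresentation w] [Flat (s ≫ w)] [LocallyOfFinitePresentation (s ≫ w)]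
    (T : S.Opens) (hT : IsAffineOpen T) (V : W.Opens) (hV : IsAffineOpen V) (e : V ≤ w ⁻¹ᵁ T) :
    Flat2H.PCMap (s.app V).hom := by
  have hU : IsAffineOpen (s ⁻¹ᵁ V) := hV.preimage s
  have e' : s ⁻¹ᵁ V ≤ (s ≫ w) ⁻¹ᵁ T := fun x hx => e hx
  have e1 : w.appLE T V e ≫ s.app V = (s ≫ w).appLE T (s ⁻¹ᵁ V) e' := by
    rw [Scheme.Hom.app_eq_appLE, Scheme.Hom.appLE_comp_appLE]
  refine pcMap_of_flat_flat (w.appLE T V e).hom (s.app V).hom (app_surjective s V hV)
    (Flat.flat_appLE (f := w) hT hV e)
    (LocallyOfFinitePresentation.finitePresentation_appLE (f := w) hT hV e) ?_ ?_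
  · rw [← CommRingCat.hom_comp, e1]
    exact Flat.flat_appLE (f := s ≫ w) hT hU e'
  · rw [← CommRingCat.hom_comp, e1]
    exact LocallyOfFinitePresentation.finitePresentation_appLE (f := s ≫ w) hT hU e'

/-- `s_* O_U` is pseudo-coherent for a closed immersion of flat locally finitely presented schemes. -/
theorem pc_push_closed [IsClosedImmersion s] {S : Scheme.{u}} (w : W ⟶ S)
    [Flat w] [LocallyOfFinitePresentation w] [Flat (s ≫ w)] [LocallyOfFinitePresentation (s ≫ w)]
    (m : ℤ) :
    DCoh.IsPseudoCoherentD m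
      (DCoh.inD W ((Scheme.Modules.pushforward s).obj (Coh.structureModule U))) := by
  refine pc_push_of_affine s (fun y => ?_) m
  obtain ⟨_, ⟨T, hT, rfl⟩, hyT, -⟩ := S.isBasis_affineOpens.exists_subset_of_mem_open
    (Set.mem_univ (w y)) isOpen_univ
  obtain ⟨_, ⟨V, hV, rfl⟩, hy, hVT⟩ := W.isBasis_affineOpens.exists_subset_of_mem_open
    (show y ∈ (w ⁻¹ᵁ T : W.Opens) from hyT) (w ⁻¹ᵁ T).2
  exact ⟨V, hV, hy, pcMap_app_closed s w T hT V hV hVT⟩

end Scheme

/-- The diagonal of a separated flat morphism locally of finite presentation: `Δ_* O` is pseudo-coherent. -/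
theorem pc_push_diagonal {X S : Scheme.{u}} (f : X ⟶ S) [IsSeparated f] [Flat f]
    [LocallyOfFinitePresentation f] (m : ℤ) :
    DCoh.IsPseudoCoherentD m (DCoh.inD (pullback f f)
      ((Scheme.Modules.pushforward (pullback.diagonal f)).obj (Coh.structureModule X))) := by
  have h1 : Flat (pullback.diagonal f ≫ pullback.fst f f ≫ f) := by
    rw [pullback.diagonal_fst_assoc]; infer_instance
  have h2 : LocallyOfFinitePresentation (pullback.diagonal f ≫ pullback.fst f f ≫ f) := by
    rw [pullback.diagonal_fst_assoc]; infer_instance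
  exact pc_push_closed (pullback.diagonal f) (pullback.fst f f ≫ f) m

end Groth.Agent.Dual.H354.FlatClosed
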