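import Groth.Agent.Ega1.ADualRestrict
import Groth.Agent.Ega1.ADualOpen
import Groth.Agent.LoccohB.VanOn
import Groth.Agent.LoccohB.AdStruct

/-!
# Open base change for the right adjoint of `Rf_*`: quasi-compact quasi-separated form

* `SuppProp f`: the values at bounded below `Q` of the right adjoint of `Rf_*` vanish over `V` if `Q` does;
* `univ_restrict`: `SuppProp f` implies that universal pairs restrict to quasi-compact opens.
-/

set_option autoImplicit false

universe u

open CategoryTheory CategoryTheory.Limits Pretriangulated AlgebraicGeometry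

attribute [local instance] HasDerivedCategory.standard

namespace Groth.Agent.Dual.H354.Restr

open Groth.Agent.Dcoh.DerSch Groth.Agent.Ega1.ADualUniv Groth.Agent.LoccohB
open Groth.Agent.Ega1.ADualRestrict Groth.Agent.Ega1.ADualOpen
open Groth.Agent.PerfA.Restrict (restrictD)
open Groth.Agent.PerfB.OpenAdj (openAdj)
open Groth.Agent.LoccohB.VanOn

variable {X Y U V : Scheme.{u}}

/-- The support property of the right adjoint of `Rf_*` (bounded below complexes). -/
def SuppProp (f : X ⟶ Y) [DCoh.HasRpush f] : Prop :=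
  ∀ (Q : DCoh.D Y) (_ : DCoh.IsQCohD Q) (c : ℤ) (_ : Q.IsGE c) (L : DCoh.D X) (_ : Univ f Q L)
    (V : Y.Opens) (_ : IsCompact (V : Set Y)), vanOn V Q → vanOn (f ⁻¹ᵁ V) L

/-- The support property of the right adjoint of `Rf_*` (all complexes). -/
def SuppPropAll (f : X ⟶ Y) [DCoh.HasRpush f] : Prop :=
  ∀ (Q : DCoh.D Y) (_ : DCoh.IsQCohD Q) (L : DCoh.D X) (_ : Univ f Q L)
    (V : Y.Opens) (_ : IsCompact (V : Set Y)), vanOn V Q → vanOn (f ⁻¹ᵁ V) L

/-- Open base change for universal objects. -/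
theorem univ_restrict_aux [CompactSpace X] [QuasiSeparatedSpace X] [CompactSpace Y]
    [QuasiSeparatedSpace Y] (f : X ⟶ Y) [DCoh.HasRpush f] {f' : U ⟶ V}
    [DCoh.HasRpush f'] {j' : U ⟶ X} {j : V ⟶ Y} [IsOpenImmersion j'] [IsOpenImmersion j]
    [QuasiCompact j] (P : DCoh.D Y → Prop)
    (hP : ∀ K : DCoh.D Y, DCoh.IsQCohD K → P K → ∀ [DCoh.HasRpush j] (Q : DCoh.D Y) (u : Q ⟶ K)
      (w : (DCoh.Rpush j).obj ((restrictD j).obj K) ⟶ Q⟦(1 : ℤ)⟧),
      Triangle.mk u ((openAdj j).unit.app K) w ∈ distTriang (DCoh.D Y) → P Q)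
    (hS : ∀ (Q : DCoh.D Y) (_ : DCoh.IsQCohD Q) (_ : P Q) (L : DCoh.D X) (_ : Univ f Q L)
      (V : Y.Opens) (_ : IsCompact (V : Set Y)), vanOn V Q → vanOn (f ⁻¹ᵁ V) L)
    (hp : IsPullback j' f' f j) {K : DCoh.D Y} (hK : DCoh.IsQCohD K) (hKP : P K)
    {L : DCoh.D X} (h : Univ f K L) : Univ f' ((restrictD j).obj K) ((restrictD j').obj L) := by
  have : DCoh.HasRpush j := hasRpush j
  have : QuasiCompact f := inferInstance
  have : QuasiSeparated f := inferInstance
  have : QuasiCompact j' := MorphismProperty.of_isPullback (P := @QuasiCompact) hp.flip inferInstance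
  have hf : ∀ N : DCoh.D X, DCoh.IsQCohD N → DCoh.IsQCohD ((DCoh.Rpush f).obj N) :=
    fun N hN => S0998.result f N hN
  have := S1766.result X Y f hf
  set F : DCoh.DQCoh X ⥤ DCoh.DQCoh Y := ObjectProperty.lift DCoh.IsQCohD
    (ObjectProperty.ι DCoh.IsQCohD ⋙ DCoh.Rpush f) (fun K => hf K.obj K.property) with hF
  let a := F.rightAdjoint
  let adj : F ⊣ a := Adjunction.ofIsLeftAdjoint F
  let K₀ : DCoh.DQCoh Y := ⟨K, hK⟩
  have hK' : DCoh.IsQCohD ((DCoh.Rpush j).obj ((restrictD j).obj K)) :=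
    S0998.result j _ (PerfA.QCohD.isQCohD_restrictD j hK)
  let K₁ : DCoh.DQCoh Y := ⟨_, hK'⟩
  let φ : K₀ ⟶ K₁ := ObjectProperty.homMk ((openAdj j).unit.app K)
  have hVc : IsCompact (j.opensRange : Set Y) := by
    have h1 : j ''ᵁ ⊤ = j.opensRange := Scheme.Hom.image_top_eq_opensRange j
    have : CompactSpace V := QuasiCompact.compactSpace_of_compactSpace j
    have h2 : IsCompact (Set.range j) := isCompact_range j.continuous
    exact h2
  have hi : IsIso ((restrictD j').map ((a.map φ).hom)) := by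
    obtain ⟨_, _, -⟩ := RpushTri.exists_isTriangulated_Rpush f
    refine isIso_map_rightAdjoint_aux adj ((DCoh.IsQCohD (X := X)).ι ⋙ restrictD j') φ ?_
    intro Q ψ δ hT
    have hT' : Triangle.mk ψ.hom ((openAdj j).unit.app K)
        (δ.hom ≫ ((DCoh.IsQCohD (X := Y)).ι.commShiftIso (1 : ℤ)).hom.app Q) ∈
        distTriang (DCoh.D Y) :=
      (DCoh.IsQCohD (X := Y)).ι.map_distinguished _ hT
    have hQ : P Q.obj := hP K hK hKP _ _ _ hT'
    have hQV : IsZero ((restrictD j).obj Q.obj) :=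
      (Triangle.isZero₁_iff_isIso₂ _ ((restrictD j).map_distinguished _ hT')).2
        (PerfB.OpenAdj.isIso_restrictD_map_unit j K)
    have h1 : Univ f Q.obj (a.obj Q).obj := univ_of_adj (a := a) adj Q
    have h2 : vanOn j.opensRange Q.obj := by
      rw [vanOn_iff_vanAt]
      rintro _ ⟨y, rfl⟩
      exact (isZero_restrictD_iff j Q.obj).1 hQV y
    have h3 := hS Q.obj Q.property hQ _ h1 j.opensRange hVc h2
    rw [vanOn_iff_vanAt] at h3
    refine (isZero_restrictD_iff j' _).2 (fun x => h3 _ ?_)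
    exact ⟨f' x, by rw [← Scheme.Hom.comp_apply, ← hp.w]; rfl⟩
  have h1 : Univ f K (a.obj K₀).obj := univ_of_adj (a := a) adj K₀
  have h2 : Univ f K₁.obj (a.obj K₁).obj := univ_of_adj (a := a) adj K₁
  obtain ⟨e⟩ := h.unique h1
  have h3 := Univ.restrict_push hp h2
  exact h3.of_iso_left ((asIso ((restrictD j').map ((a.map φ).hom))).symm ≪≫
    (restrictD j').mapIso e.symm) (PerfA.QCohD.isQCohD_restrictD j' h.qcoh)

/-- Open base change for universal objects, bounded below complexes. -/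
theorem univ_restrict [CompactSpace X] [QuasiSeparatedSpace X] [CompactSpace Y]
    [QuasiSeparatedSpace Y] (f : X ⟶ Y) [DCoh.HasRpush f] (hS : SuppProp f) {f' : U ⟶ V}
    [DCoh.HasRpush f'] {j' : U ⟶ X} {j : V ⟶ Y} [IsOpenImmersion j'] [IsOpenImmersion j]
    [QuasiCompact j] (hp : IsPullback j' f' f j) {K : DCoh.D Y} (hK : DCoh.IsQCohD K) (c : ℤ)
    (hKc : K.IsGE c) {L : DCoh.D X} (h : Univ f K L) :
    Univ f' ((restrictD j).obj K) ((restrictD j').obj L) := by
  refine univ_restrict_aux f (fun Q => Q.IsGE c) ?_ (fun Q hQ hQc L hL V hV hQV =>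
    hS Q hQ c hQc L hL V hV hQV) hp hK hKc h
  intro K hK hKc _ Q u w hT
  refine isGE_obj₁ hT c hKc ?_
  have : ((restrictD j).obj K).IsGE c := PerfA.ExactD.isGE_map _ _ _
  exact PerfC.RpushTrunc.isGE_Rpush j _ c

/-- Open base change for universal objects, all complexes. -/
theorem univ_restrict_all [CompactSpace X] [QuasiSeparatedSpace X] [CompactSpace Y]
    [QuasiSeparatedSpace Y] (f : X ⟶ Y) [DCoh.HasRpush f] (hS : SuppPropAll f) {f' : U ⟶ V}
    [DCoh.HasRpush f'] {j' : U ⟶ X} {j : V ⟶ Y} [IsOpenImmersion j'] [IsOpenImmersion j]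
    [QuasiCompact j] (hp : IsPullback j' f' f j) {K : DCoh.D Y} (hK : DCoh.IsQCohD K)
    {L : DCoh.D X} (h : Univ f K L) :
    Univ f' ((restrictD j).obj K) ((restrictD j').obj L) :=
  univ_restrict_aux f (fun _ => True) (fun _ _ _ _ _ _ _ _ => trivial)
    (fun Q hQ _ L hL V hV hQV => hS Q hQ L hL V hV hQV) hp hK trivial h

end Groth.Agent.Dual.H354.Restr
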