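import Groth.Agent.Dual.H354.FlatClosed
import Groth.Agent.Dual.H354.Restr
import Groth.Agent.Dual.H305.Supp
import Groth.Agent.LoccohB.PerfQCoh

/-!
# Support properties of the right adjoint of `Rf_*` over quasi-compact quasi-separated bases

* `suppPropAll_of_pushPerf`, `suppProp_of_pushPC`: from the support lemma `H305.Supp`;
* `suppPropAll_of_proper`: `f` proper, flat, locally of finite presentation;
* `suppProp_of_closed`: closed immersions between flat locally finitely presented schemes.
-/

set_option autoImplicit false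

universe u

open AlgebraicGeometry CategoryTheory CategoryTheory.Limits Opposite TopologicalSpace Pretriangulated

attribute [local instance] HasDerivedCategory.standard

namespace Groth.Agent.Dual.H354.Inst

open Groth.Agent.PerfA.Restrict Groth.Agent.PerfC.PcLocal Groth.Agent.PerfC.FinitePush
open Groth.Agent.Dual.H354.Restr Groth.Agent.Ega1.ADualUniv Groth.Agent.LoccohB.VanOn
open Groth.Agent.Dual.H305.Supp

variable {X Y : Scheme.{u}} (f : X ⟶ Y)

/-- Support property, all complexes. -/
theorem suppPropAll_of_pushPerf [QuasiCompact f] [QuasiSeparated f] [CompactSpace Y]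
    [QuasiSeparatedSpace Y] (hf : ∀ W : Y.Opens, IsAffineOpen W → PushPerf (f ∣_ W))
    [DCoh.HasRpush f] : SuppPropAll f := by
  intro Q hQ L hL V _ hQV
  have hX1 : CompactSpace X := QuasiCompact.compactSpace_of_compactSpace f
  have hX2 : QuasiSeparatedSpace X := quasiSeparatedSpace_of_quasiSeparated f
  have h : ∀ N : DCoh.D X, DCoh.IsQCohD N → DCoh.IsQCohD ((DCoh.Rpush f).obj N) :=
    fun N hN => S0998.result f N hN
  have := S1766.result X Y f h
  let adj := Adjunction.ofIsLeftAdjoint (ObjectProperty.lift DCoh.IsQCohD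
    (ObjectProperty.ι DCoh.IsQCohD ⋙ DCoh.Rpush f) (fun K => h K.obj K.property))
  obtain ⟨e⟩ := (univ_of_adj (h := h) adj ⟨Q, hQ⟩).unique hL
  exact vanOn_of_iso e (vanOn_preimage_of_pushPerf f hf h _ adj V ⟨Q, hQ⟩ hQV)

/-- Support property, bounded below complexes. -/
theorem suppProp_of_pushPC [QuasiCompact f] [QuasiSeparated f] [CompactSpace Y]
    [QuasiSeparatedSpace Y] (hf : ∀ W : Y.Opens, IsAffineOpen W → PushPC (f ∣_ W))
    [DCoh.HasRpush f] : SuppProp f := by
  intro Q hQ c hc L hL V _ hQV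
  have hX1 : CompactSpace X := QuasiCompact.compactSpace_of_compactSpace f
  have hX2 : QuasiSeparatedSpace X := quasiSeparatedSpace_of_quasiSeparated f
  have h : ∀ N : DCoh.D X, DCoh.IsQCohD N → DCoh.IsQCohD ((DCoh.Rpush f).obj N) :=
    fun N hN => S0998.result f N hN
  have := S1766.result X Y f h
  let adj := Adjunction.ofIsLeftAdjoint (ObjectProperty.lift DCoh.IsQCohD
    (ObjectProperty.ι DCoh.IsQCohD ⋙ DCoh.Rpush f) (fun K => h K.obj K.property))
  obtain ⟨e⟩ := (univ_of_adj (h := h) adj ⟨Q, hQ⟩).unique hL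
  exact vanOn_of_iso e (vanOn_preimage_of_pushPC f hf h _ adj V ⟨Q, hQ⟩ c hc hQV)

theorem SuppPropAll.suppProp {f : X ⟶ Y} [DCoh.HasRpush f] (h : SuppPropAll f) : SuppProp f :=
  fun Q hQ _ _ L hL V hV hQV => h Q hQ L hL V hV hQV

/-- `f` proper, flat, locally of finite presentation. -/
theorem suppPropAll_of_proper [CompactSpace Y] [QuasiSeparatedSpace Y] [IsProper f] [Flat f]
    [LocallyOfFinitePresentation f] [DCoh.HasRpush f] : SuppPropAll f :=
  suppPropAll_of_pushPerf f (fun W _ => pushPerf_restrict_of_flat_proper f W)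

/-- Closed immersions between flat locally finitely presented schemes. -/
theorem pushPC_of_closed {U W : Scheme.{u}} (s : U ⟶ W) [IsClosedImmersion s] {S : Scheme.{u}}
    (w : W ⟶ S) [Flat w] [LocallyOfFinitePresentation w] [Flat (s ≫ w)]
    [LocallyOfFinitePresentation (s ≫ w)] (V : W.Opens) : PushPC (s ∣_ V) := by
  intro _ P hP m
  have e : (s ∣_ V) ≫ V.ι ≫ w = (s ⁻¹ᵁ V).ι ≫ s ≫ w := by
    rw [← Category.assoc, morphismRestrict_ι, Category.assoc]
  have : Flat ((s ∣_ V) ≫ V.ι ≫ w) := by rw [e]; infer_instance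
  have : LocallyOfFinitePresentation ((s ∣_ V) ≫ V.ι ≫ w) := by rw [e]; infer_instance
  exact (iff_Rpush (s ∣_ V) (fun m => FlatClosed.pc_push_closed (s ∣_ V) (V.ι ≫ w) m) P
    (LoccohB.PerfQCoh.isQCohD_of_isPerfect hP) m).1
    (PerfA.PCohQCoh.isPseudoCoherentD_of_isPerfect hP m)

theorem suppProp_of_closed {U W : Scheme.{u}} (s : U ⟶ W) [CompactSpace W] [QuasiSeparatedSpace W]
    [IsClosedImmersion s] {S : Scheme.{u}} (w : W ⟶ S) [Flat w]
    [LocallyOfFinitePresentation w] [Flat (s ≫ w)] [LocallyOfFinitePresentation (s ≫ w)]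
    [DCoh.HasRpush s] : SuppProp s :=
  suppProp_of_pushPC s (fun V _ => pushPC_of_closed s w V)

end Groth.Agent.Dual.H354.Inst
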