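import Groth.Agent.Dual.H354.Struct
import Groth.Agent.Dual.H354.Inst
import Groth.Agent.Dual.H354.Chart
import Groth.Agent.LoccohB.AdAffine
import Groth.Agent.LoccohB.LBC2
import Groth.Prelude.Def_DualSh

/-!
# Local structure of the relative dualizing complex, non-Noetherian form

* `local_structure`: for `f : X ⟶ Spec R` proper, flat, locally of finite presentation and `M` universal for
  `(f, O)`: if `j : Spec A ⟶ X` is an open immersion and `θ : P = R[x_1..x_n] → A` is surjective over `R` then
  `j^* M ≅ (G (P[n]))~`, `G` the right adjoint of `D(A) ⥤ D(P)`;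
* `bridge`: over any quasi-compact quasi-separated base, `M|_{Spec A} ≅ (shriekVia n Rψ R)~`.
-/

set_option autoImplicit false

universe u

open CategoryTheory CategoryTheory.Limits AlgebraicGeometry Pretriangulated

attribute [local instance] HasDerivedCategory.standard

namespace Groth.Agent.Dual.H354.Local

open DerivedCategory
open Groth.Agent.Dcoh.DerSch Groth.Agent.Ega1.ADualUniv Groth.Agent.Ega1.ADualOpen
open Groth.Agent.LoccohB Groth.Agent.LoccohB.AdAffine
open Groth.Agent.PerfA.Restrict (restrictD)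
open Groth.Agent.Dual.H354.Restr Groth.Agent.Dual.H354.Struct Groth.Agent.Dual.H354.Inst

variable {X Y : Scheme.{u}}

/-- `A` in degree `0` is the structure sheaf. -/
noncomputable def isoO (R : CommRingCat.{u}) :
    (tD R).obj (_root_.Dual.inD R R) ≅ DCoh.inD (Spec R) (Coh.structureModule (Spec R)) :=
  ((tilde.functor R).mapDerivedCategorySingleFunctor 0).app (ModuleCat.of R R) ≪≫
    (singleFunctor (Spec R).Modules 0).mapIso (tildeSelf (R := R))

/-- Restriction of the structure sheaf. -/
noncomputable def restrictO (j : X ⟶ Y) [IsOpenImmersion j] :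
    (restrictD j).obj (DCoh.inD Y (Coh.structureModule Y)) ≅ DCoh.inD X (Coh.structureModule X) :=
  PerfA.PerfLocal.restrictInD j _ ≪≫
    (singleFunctor X.Modules 0).mapIso (Scheme.Modules.restrictUnitIso j)

/-- Local structure over an affine base. -/
theorem local_structure (R : Type u) [CommRing R]
    (f : X ⟶ Spec (CommRingCat.of R)) [IsProper f] [Flat f] [LocallyOfFinitePresentation f]
    [DCoh.HasRpush f] {M : DCoh.D X}
    (hM : Univ f (DCoh.inD (Spec (CommRingCat.of R)) (Coh.structureModule (Spec (CommRingCat.of R)))) M)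
    {A : CommRingCat.{u}} (j : Spec A ⟶ X) [IsOpenImmersion j] (ψ : CommRingCat.of R ⟶ A)
    (hψ : j ≫ f = Spec.map ψ) (n : ℕ) (θ : MvPolynomial (Fin n) R →+* A)
    (hθ : Function.Surjective θ) (hθC : θ.comp MvPolynomial.C = ψ.hom)
    {G : Dual.D (MvPolynomial (Fin n) R) ⥤ Dual.D A} (adj : DRing.restrictD θ ⊣ G) :
    Nonempty ((restrictD j).obj M ≅
      (tD A).obj (G.obj ((Dual.inD (MvPolynomial (Fin n) R) (MvPolynomial (Fin n) R))⟦(n : ℤ)⟧))) := by
  let P := CommRingCat.of (MvPolynomial (Fin n) R)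
  let φ : P ⟶ A := CommRingCat.ofHom θ
  have hφ : Function.Surjective φ.hom := hθ
  have hcl : IsClosedImmersion (Spec.map φ) := IsClosedImmersion.spec_of_surjective φ hφ
  let π := CohB1.ProjSpace.toSpec n R
  have hπ : IsProper π := Ega3B.ProjProper.isProper_toSpec n R
  have hπs : SmoothOfRelativeDimension n π := Sga5.ProjSmooth.smooth_toSpec n R
  have hπs' : Smooth π := SmoothOfRelativeDimension.smooth n π
  have hπf : Flat π := inferInstance
  have hπfp : LocallyOfFinitePresentation π := inferInstance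
  have : DCoh.HasRpush π := hasRpush π
  have : DCoh.HasRpush (Spec.map φ) := hasRpush (Spec.map φ)
  let l : Spec P ⟶ CohB1.ProjSpace n R := Sga5.ProjSmooth.chart n R 0
  have hl : IsOpenImmersion l := inferInstanceAs (IsOpenImmersion (Sga5.ProjSmooth.chart n R 0))
  have hlπ : l ≫ π = Spec.map (CommRingCat.ofHom (MvPolynomial.C : R →+* MvPolynomial (Fin n) R)) :=
    Sga5.ProjSmooth.chart_toSpec n R 0
  have hs : Spec.map φ ≫ l ≫ π = j ≫ f := by
    rw [hlπ, hψ, ← Spec.map_comp]
    congr 1
    ext r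
    exact congrArg (fun g => g r) hθC
  have hqO : DCoh.IsQCohD (DCoh.inD (Spec (CommRingCat.of R))
      (Coh.structureModule (Spec (CommRingCat.of R)))) :=
    PerfA.QCohD.isQCohD_inD _ (Ega2.QCohLocal.isQCoh_structureModule _)
  have hP1 : CompactSpace (CohB1.ProjSpace n R) := compactSpace_of_qc π
  have hP2 : QuasiSeparatedSpace (CohB1.ProjSpace n R) := quasiSeparatedSpace_of_qs π
  obtain ⟨L, hL⟩ := exists_univ π _ hqO
  have hX1 : CompactSpace X := compactSpace_of_qc f
  have hX2 : QuasiSeparatedSpace X := quasiSeparatedSpace_of_qs f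
  have hZ1 : CompactSpace (pullback f π : Scheme.{u}) := compactSpace_of_qc (pullback.fst f π)
  have hZ2 : QuasiSeparatedSpace (pullback f π : Scheme.{u}) :=
    quasiSeparatedSpace_of_qs (pullback.fst f π)
  have hqj : QuasiCompact j := inferInstance
  have hql : QuasiCompact l := inferInstance
  have hO : (DCoh.inD (Spec (CommRingCat.of R))
      (Coh.structureModule (Spec (CommRingCat.of R)))).IsGE 0 := inferInstance
  have h2 : Univ (Spec.map φ) ((restrictD l).obj L) ((restrictD j).obj M) := by
    refine univ_structure f π j l (Spec.map φ) hs (Inst.SuppPropAll.suppProp (suppPropAll_of_proper _))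
      (Inst.SuppPropAll.suppProp (suppPropAll_of_proper _)) ?_ ?_ hqO 0 hO hM hL
    · intro s₁ _ _ hs₁
      have hW1 : CompactSpace (pullback (pullback.fst f π) j : Scheme.{u}) :=
        compactSpace_of_qc (pullback.fst (pullback.fst f π) j)
      have hW2 : QuasiSeparatedSpace (pullback (pullback.fst f π) j : Scheme.{u}) :=
        quasiSeparatedSpace_of_qs (pullback.fst (pullback.fst f π) j)
      have e : s₁ ≫ pullback.fst (pullback.fst f π) j ≫ pullback.fst f π ≫ f = Spec.map ψ := by
        rw [pullback.condition_assoc, reassoc_of% hs₁, hψ]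
      have hf1 : Flat (Spec.map ψ) := by rw [← hψ]; infer_instance
      have hf2 : LocallyOfFinitePresentation (Spec.map ψ) := by rw [← hψ]; infer_instance
      have : Flat (s₁ ≫ pullback.fst (pullback.fst f π) j ≫ pullback.fst f π ≫ f) := by
        rw [e]; exact hf1
      have : LocallyOfFinitePresentation
          (s₁ ≫ pullback.fst (pullback.fst f π) j ≫ pullback.fst f π ≫ f) := by
        rw [e]; exact hf2
      exact suppProp_of_closed s₁ (pullback.fst (pullback.fst f π) j ≫ pullback.fst f π ≫ f)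
    · intro s₂ _ _ hs₂
      have hW1 : CompactSpace (pullback (pullback.snd f π) l : Scheme.{u}) :=
        compactSpace_of_qc (pullback.fst (pullback.snd f π) l)
      have hW2 : QuasiSeparatedSpace (pullback (pullback.snd f π) l : Scheme.{u}) :=
        quasiSeparatedSpace_of_qs (pullback.fst (pullback.snd f π) l)
      have e : s₂ ≫ pullback.fst (pullback.snd f π) l ≫ pullback.snd f π ≫ π = Spec.map ψ := by
        rw [pullback.condition_assoc, reassoc_of% hs₂, hs, hψ]
      have hf1 : Flat (Spec.map ψ) := by rw [← hψ]; infer_instance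
      have hf2 : LocallyOfFinitePresentation (Spec.map ψ) := by rw [← hψ]; infer_instance
      have : Flat (s₂ ≫ pullback.fst (pullback.snd f π) l ≫ pullback.snd f π ≫ π) := by
        rw [e]; exact hf1
      have : LocallyOfFinitePresentation
          (s₂ ≫ pullback.fst (pullback.snd f π) l ≫ pullback.snd f π ≫ π) := by
        rw [e]; exact hf2
      exact suppProp_of_closed s₂ (pullback.fst (pullback.snd f π) l ≫ pullback.snd f π ≫ π)
  obtain ⟨eL⟩ := Chart.nonempty_chart n R L hL 0
  let eK : (tD P).obj ((Dual.inD (MvPolynomial (Fin n) R) (MvPolynomial (Fin n) R))⟦(n : ℤ)⟧) ≅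
      (restrictD l).obj L :=
    ((tD P).commShiftIso (n : ℤ)).app _ ≪≫ (shiftFunctor _ (n : ℤ)).mapIso (isoO P) ≪≫ eL.symm
  obtain ⟨e⟩ := nonempty_iso_radj φ hφ h2 _ eK (R := G) adj
  exact ⟨e.symm⟩

/-- The bridge over an affine base. -/
theorem bridge_affine (R : Type u) [CommRing R]
    (f : X ⟶ Spec (CommRingCat.of R)) [IsProper f] [Flat f] [LocallyOfFinitePresentation f]
    [DCoh.HasRpush f] {K : DCoh.D (Spec (CommRingCat.of R))}
    (eK : K ≅ DCoh.inD _ (Coh.structureModule (Spec (CommRingCat.of R))))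
    {M : DCoh.D X} (hM : Univ f K M)
    {A : CommRingCat.{u}} (j : Spec A ⟶ X) [IsOpenImmersion j] (n : ℕ)
    (ψ : MvPolynomial (Fin n) R →+* A) (hψ : Function.Surjective ψ)
    (hj : j ≫ f = Spec.map (CommRingCat.ofHom (ψ.comp MvPolynomial.C)))
    [DRing.HasLBaseChange (algebraMap R (MvPolynomial (Fin n) R))]
    {Rψ : _root_.Dual.D (MvPolynomial (Fin n) R) ⥤ _root_.Dual.D A}
    (adj : DRing.restrictD ψ ⊣ Rψ) :
    Nonempty ((restrictD j).obj M ≅ (tD A).obj (Dual2.shriekVia n Rψ (_root_.Dual.inD R R))) := by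
  obtain ⟨e⟩ := local_structure R f (hM.of_iso_right eK) j (CommRingCat.ofHom (ψ.comp MvPolynomial.C)) hj n
    ψ hψ rfl adj
  let K₁ : _root_.Dual.D (MvPolynomial (Fin n) R) :=
    (DRing.LBaseChange (algebraMap R (MvPolynomial (Fin n) R))).obj (_root_.Dual.inD R R)
  let e0 : K₁ ≅ _root_.Dual.inD (MvPolynomial (Fin n) R) (MvPolynomial (Fin n) R) := LBC.lbcSelfIso _ 0
  obtain ⟨e4⟩ := LBC.radj_shift (φ := ψ) adj K₁ (n : ℤ)
  exact ⟨e ≪≫ (tD A).mapIso (Rψ.mapIso ((shiftFunctor _ (n : ℤ)).mapIso e0.symm) ≪≫ e4)⟩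

/-- **The bridge** for a proper flat morphism locally of finite presentation over a quasi-compact
quasi-separated base. -/
theorem bridge [CompactSpace Y] [QuasiSeparatedSpace Y] (f : X ⟶ Y) [IsProper f] [Flat f]
    [LocallyOfFinitePresentation f] [DCoh.HasRpush f] {K : DCoh.D Y}
    (eK : K ≅ DCoh.inD Y (Coh.structureModule Y))
    {M : DCoh.D X} (hM : Univ f K M)
    {A R : CommRingCat.{u}} (jU : Spec A ⟶ X) [IsOpenImmersion jU] (jV : Spec R ⟶ Y) [IsOpenImmersion jV]
    (φ : R ⟶ A) (h : jU ≫ f = Spec.map φ ≫ jV) (n : ℕ)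
    (ψ : MvPolynomial (Fin n) R →+* A) (hψ : Function.Surjective ψ)
    (hψC : ψ.comp MvPolynomial.C = φ.hom)
    [DRing.HasLBaseChange (algebraMap R (MvPolynomial (Fin n) R))]
    {Rψ : _root_.Dual.D (MvPolynomial (Fin n) R) ⥤ _root_.Dual.D A}
    (adj : DRing.restrictD ψ ⊣ Rψ) :
    Nonempty ((restrictD jU).obj M ≅ (tD A).obj (Dual2.shriekVia n Rψ (_root_.Dual.inD R R))) := by
  have hX1 : CompactSpace X := compactSpace_of_qc f
  have hX2 : QuasiSeparatedSpace X := quasiSeparatedSpace_of_qs f
  have hKq : DCoh.IsQCohD K := PerfA.QCohD.isQCohD_of_iso eK.symm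
    (PerfA.QCohD.isQCohD_inD _ (Ega2.QCohLocal.isQCoh_structureModule _))
  have hp : IsPullback (pullback.fst f jV) (pullback.snd f jV) f jV := IsPullback.of_hasPullback f jV
  have : DCoh.HasRpush (pullback.snd f jV) := hasRpush _
  have : QuasiCompact jV := inferInstance
  have h1 := univ_restrict_all f (suppPropAll_of_proper f) hp hKq hM
  let g : Spec A ⟶ pullback f jV := pullback.lift jU (Spec.map φ) h
  have hg1 : g ≫ pullback.fst f jV = jU := pullback.lift_fst _ _ _
  have hg2 : g ≫ pullback.snd f jV = Spec.map φ := pullback.lift_snd _ _ _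
  have : IsOpenImmersion (g ≫ pullback.fst f jV) := by rw [hg1]; infer_instance
  have : IsOpenImmersion g := IsOpenImmersion.of_comp g (pullback.fst f jV)
  obtain ⟨e⟩ := bridge_affine R (pullback.snd f jV) ((restrictD jV).mapIso eK ≪≫ restrictO jV) h1 g n ψ hψ
    (by rw [hg2, hψC]; rfl) adj
  exact ⟨((PerfA.PerfLocal.restrictDComp g (pullback.fst f jV) ≪≫
      PerfA.PerfLocal.restrictDCongr hg1).app M).symm ≪≫ e⟩

end Groth.Agent.Dual.H354.Local
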