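import Groth.Agent.Dual.H322.BcMain
import Groth.Agent.Dual.H345.AffUniv
import Groth.Agent.Dual.H354.Inst

/-!
# Flat base change for the right adjoint of `Rf_*`, `f` proper, flat, locally of finite presentation

Over quasi-compact quasi-separated bases and for all complexes with quasi-coherent cohomology.

* `openCond_of_supp`: the support property gives `H322.BcMain.OpenCond`;
* `isIso_bc_of_perfect`: base change over affine schemes, `Rf_*` preserving perfect complexes;
* `isIso_bc`: the base change map is an isomorphism;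
* `univ_flat`: universal pairs are stable under flat base change.
-/

set_option autoImplicit false

universe u

open CategoryTheory CategoryTheory.Limits AlgebraicGeometry Pretriangulated

attribute [local instance] HasDerivedCategory.standard

namespace Groth.Agent.Dual.H354.QcBC

open Groth.Agent.PerfB.BCTot Groth.Agent.PerfB.BCTot.Tot Groth.Agent.PerfB.BCSch
  Groth.Agent.PerfB.BCFormal Groth.Agent.Dual.H322.BcForm Groth.Agent.Dual.H322.BcSch
  Groth.Agent.Dual.H322.BcGlue Groth.Agent.Dual.H322.BcOpen Groth.Agent.Dual.H322.BcUniv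
  Groth.Agent.Dual.H322.BcMain
  Groth.Agent.Dcoh.DerSch Groth.Agent.PerfB.BCPush Groth.Agent.PerfB.BCShift
open Groth.Agent.Dual.H354.Restr Groth.Agent.Dual.H354.Inst Groth.Agent.Ega1.ADualUniv
  Groth.Agent.Ega1.ADualOpen Groth.Agent.LoccohB.VanOn
open Groth.Agent.PerfA.Restrict (restrictD)

attribute [local instance] hasLpull hasRpush

section Open

variable {X Y : Scheme.{u}}

lemma isCompact_opensRange {V : Scheme.{u}} [CompactSpace Y] (j : V ⟶ Y) [IsOpenImmersion j]
    [QuasiCompact j] : IsCompact (j.opensRange : Set Y) := by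
  have : CompactSpace V := QuasiCompact.compactSpace_of_compactSpace j
  have h2 : IsCompact (Set.range j) := isCompact_range j.continuous
  exact h2

/-- The support property gives compatibility with restriction to opens. -/
theorem openCond_of_supp [CompactSpace Y] [QuasiSeparatedSpace Y] (f : X ⟶ Y) [QuasiCompact f]
    [QuasiSeparated f] (hS : SuppPropAll f) {hf : DCoh.RpushPreservesQCoh f}
    {a : DCoh.DQCoh Y ⥤ DCoh.DQCoh X} (adj : DCoh.RpushQ f hf ⊣ a) (K : DCoh.DQCoh Y) :
    OpenCond f a K := by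
  intro U V jX f₀ j _ _ sq
  have : IsOpenImmersion jX := MorphismProperty.of_isPullback sq.flip inferInstance
  have : QuasiCompact f₀ := MorphismProperty.of_isPullback sq inferInstance
  have : QuasiSeparated f₀ := MorphismProperty.of_isPullback sq inferInstance
  refine isIso_map_unit (j' := jX) adj (fun Q hQ => ?_) K
  have hQV : IsZero ((restrictD j).obj Q.obj) :=
    hQ.of_iso ((PerfB.LpullOpens.lpullRestrictD j).symm.app _)
  have h1 : Univ f Q.obj (a.obj Q).obj := univ_of_adj (h := hf) (a := a) adj Q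
  have h2 : vanOn j.opensRange Q.obj := by
    rw [vanOn_iff_vanAt]
    rintro _ ⟨y, rfl⟩
    exact (isZero_restrictD_iff j Q.obj).1 hQV y
  have h3 := hS Q.obj Q.property _ h1 j.opensRange (isCompact_opensRange j) h2
  rw [vanOn_iff_vanAt] at h3
  refine IsZero.of_iso ((isZero_restrictD_iff jX _).2 (fun x => h3 _ ?_))
    ((PerfB.LpullOpens.lpullRestrictD jX).app _)
  exact ⟨f₀ x, by rw [← Scheme.Hom.comp_apply, ← sq.w]; rfl⟩

end Open

section Affine

variable {A B : CommRingCat.{u}} {U U' : Scheme.{u}}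

/-- Base change over affine schemes. -/
theorem isIso_bc_of_perfect (φ : A ⟶ B) [Flat (Spec.map φ)] {fV : U ⟶ Spec A} {fV' : U' ⟶ Spec B}
    {h' : U' ⟶ U} [QuasiCompact fV] [QuasiSeparated fV]
    (hP : ∀ P : DCoh.D U, DCoh.IsPerfect P → DCoh.IsPerfect ((DCoh.Rpush fV).obj P))
    {hfV : DCoh.RpushPreservesQCoh fV} {hfV' : DCoh.RpushPreservesQCoh fV'}
    {hLg : Dual3.LpullPreservesQCoh (Spec.map φ)} {hLg' : Dual3.LpullPreservesQCoh h'}
    {a₀ : DCoh.DQCoh (Spec A) ⥤ DCoh.DQCoh U} {a₁ : DCoh.DQCoh (Spec B) ⥤ DCoh.DQCoh U'}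
    (adj₀ : DCoh.RpushQ fV hfV ⊣ a₀) (adj₁ : DCoh.RpushQ fV' hfV' ⊣ a₁)
    (sq : IsPullback h' fV' fV (Spec.map φ))
    (σ : DCoh.RpushQ fV hfV ⋙ Dual3.LpullQ (Spec.map φ) hLg ≅
      Dual3.LpullQ h' hLg' ⋙ DCoh.RpushQ fV' hfV') (K : DCoh.DQCoh (Spec A)) :
    IsIso (bc adj₀ adj₁ σ K) := by
  rw [isIso_bc_iff_isUniv]
  refine H345.AffUniv.isUniv_flat_of_perfect sq hP K.property (isUniv_of_adj (h := hfV) adj₀ K)
    (fun N hN => (ObjectProperty.ι _).mapIso (σ.app ⟨N, hN⟩)) ?_ (traceBC adj₀ σ K) ?_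
  · intro N N' hN hN' ψ
    exact congrArg (fun t => t.hom)
      (σ.hom.naturality (ObjectProperty.homMk ψ : (⟨N, hN⟩ : DCoh.DQCoh U) ⟶ ⟨N', hN'⟩))
  · have h1 : (σ.hom.app (a₀.obj K)).hom ≫ (σ.inv.app (a₀.obj K)).hom = 𝟙 _ :=
      congrArg (fun t => t.hom) (σ.hom_inv_id_app (a₀.obj K))
    change (σ.hom.app (a₀.obj K)).hom ≫ (σ.inv.app (a₀.obj K)).hom ≫ _ = _
    rw [← Category.assoc, h1, Category.id_comp]

end Affine

section Main

variable {X Y X' Y' : Scheme.{u}} {f : X ⟶ Y} {g : Y' ⟶ Y} {f' : X' ⟶ Y'} {g' : X' ⟶ X}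

/-- **Flat base change** for the right adjoint of `Rf_*`, `f` proper, flat, locally of finite presentation. -/
theorem isIso_bc [CompactSpace Y] [QuasiSeparatedSpace Y] [CompactSpace Y'] [QuasiSeparatedSpace Y']
    [IsProper f] [Flat f] [LocallyOfFinitePresentation f] [Flat g] (sq : IsPullback g' f' f g)
    {hf : DCoh.RpushPreservesQCoh f} {hf' : DCoh.RpushPreservesQCoh f'}
    {hLg : Dual3.LpullPreservesQCoh g} {hLg' : Dual3.LpullPreservesQCoh g'}
    {a : DCoh.DQCoh Y ⥤ DCoh.DQCoh X} {a' : DCoh.DQCoh Y' ⥤ DCoh.DQCoh X'}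
    (adj : DCoh.RpushQ f hf ⊣ a) (adj' : DCoh.RpushQ f' hf' ⊣ a')
    (σ : DCoh.RpushQ f hf ⋙ Dual3.LpullQ g hLg ≅ Dual3.LpullQ g' hLg' ⋙ DCoh.RpushQ f' hf')
    (K : DCoh.DQCoh Y) : IsIso (bc adj adj' σ K) := by
  have h1 : IsProper f' := MorphismProperty.of_isPullback sq inferInstance
  have h2 : Flat f' := MorphismProperty.of_isPullback sq inferInstance
  have h3 : LocallyOfFinitePresentation f' := MorphismProperty.of_isPullback sq inferInstance
  refine isIso_bc_of_charts sq adj adj' σ K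
    (openCond_of_supp f (suppPropAll_of_proper f) adj K)
    (openCond_of_supp f' (suppPropAll_of_proper f') adj' _) ?_
  intro A B U U' φ j j' jX fV jX' fV' h' _ _ hfV hfV' a₀ a₁ adj₀ adj₁ sqV sqV' sqh w σh
  have h4 : IsProper fV := MorphismProperty.of_isPullback sqV inferInstance
  have h5 : Flat fV := MorphismProperty.of_isPullback sqV inferInstance
  have h6 : LocallyOfFinitePresentation fV := MorphismProperty.of_isPullback sqV inferInstance
  have h7 : Flat (Spec.map φ) := by
    have h8 : Flat (Spec.map φ ≫ j) := by rw [← w]; infer_instance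
    exact MorphismProperty.of_postcomp (W := @Flat) (W' := @IsOpenImmersion) _ j inferInstance h8
  exact isIso_bc_of_perfect φ (fun P hP => S1002.result fV P hP) adj₀ adj₁ sqh σh _

/-- **Flat base change for universal pairs**, `f` proper, flat, locally of finite presentation. -/
theorem univ_flat [CompactSpace Y] [QuasiSeparatedSpace Y] [CompactSpace Y'] [QuasiSeparatedSpace Y']
    [IsProper f] [Flat f] [LocallyOfFinitePresentation f] [Flat g] (sq : IsPullback g' f' f g)
    [DCoh.HasRpush f] [DCoh.HasRpush f'] [DCoh.HasLpull g] [DCoh.HasLpull g']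
    {K : DCoh.D Y} (hK : DCoh.IsQCohD K) {L : DCoh.D X} (h : Univ f K L) :
    Univ f' ((DCoh.Lpull g).obj K) ((DCoh.Lpull g').obj L) := by
  have h1 : IsProper f' := MorphismProperty.of_isPullback sq inferInstance
  have hX1 : CompactSpace X := QuasiCompact.compactSpace_of_compactSpace f
  have hX2 : QuasiSeparatedSpace X := quasiSeparatedSpace_of_quasiSeparated f
  have hX1' : CompactSpace X' := QuasiCompact.compactSpace_of_compactSpace f'
  have hX2' : QuasiSeparatedSpace X' := quasiSeparatedSpace_of_quasiSeparated f'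
  have ha : (DCoh.RpushQ f (rpushPreserves f)).IsLeftAdjoint :=
    S1766.result _ _ f (rpushPreserves f)
  have ha' : (DCoh.RpushQ f' (rpushPreserves f')).IsLeftAdjoint :=
    S1766.result _ _ f' (rpushPreserves f')
  let adj := Adjunction.ofIsLeftAdjoint (DCoh.RpushQ f (rpushPreserves f))
  let adj' := Adjunction.ofIsLeftAdjoint (DCoh.RpushQ f' (rpushPreserves f'))
  have hqg : QuasiCompact g := inferInstance
  have hqg' : QuasiCompact g' := inferInstance
  obtain ⟨σ⟩ := nonempty_sigma sq (rpushPreserves f) (rpushPreserves f') (rpushPreserves g)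
    (rpushPreserves g') (lpullPreserves g) (lpullPreserves g')
  let K₀ : DCoh.DQCoh Y := ⟨K, hK⟩
  have h2 := (isIso_bc_iff_isUniv adj adj' σ K₀).1 (isIso_bc sq adj adj' σ K₀)
  obtain ⟨e⟩ := h.unique (univ_of_adj (h := rpushPreserves f) adj K₀)
  have h3 : Univ f' ((DCoh.Lpull g).obj K)
      ((DCoh.Lpull g').obj ((DCoh.RpushQ f (rpushPreserves f)).rightAdjoint.obj K₀).obj) := ⟨_, h2⟩
  exact h3.of_iso_left ((DCoh.Lpull g').mapIso e.symm) (lpullPreserves g' _ h.qcoh)

end Main

end Groth.Agent.Dual.H354.QcBC
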