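import Groth.Agent.Dual.H354.FlatClosed
import Groth.Agent.Dual.H354.Diag
import Groth.Agent.Dual.H355.ClosedAll
import Groth.Agent.S1054
import Groth.Agent.S3630
import Groth.Agent.PerfB.FlatPull

/-!
# The rigid structure, quasi-compact quasi-separated form

`exists_rigid`: `f : X ⟶ S` flat, separated, locally of finite presentation, `K ∈ D^+_QCoh(O_X)`.  If `L pr₁^* K`
is universal for `(pr₂, O_X)` then there is `ξ : Δ_* O_X ⟶ L pr₁^* K` as in `Dual3.IsRelDualizingPair`.
-/

set_option autoImplicit false

universe u

open CategoryTheory CategoryTheory.Limits AlgebraicGeometry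

attribute [local instance] HasDerivedCategory.standard

namespace Groth.Agent.Dual.H354.Rigid

open Groth.Agent.Dcoh.DerSch Groth.Agent.Ega1.ADualUniv

/-- **The rigid structure.** -/
theorem exists_rigid {X S : Scheme.{u}} [CompactSpace X] [QuasiSeparatedSpace X] (f : X ⟶ S)
    [QuasiCompact f] [IsSeparated f] [Flat f] [LocallyOfFinitePresentation f]
    [DCoh.HasLpull (pullback.fst f f)]
    [PreservesFiniteLimits (Scheme.Modules.pushforward (pullback.diagonal f))]
    [PreservesFiniteColimits (Scheme.Modules.pushforward (pullback.diagonal f))]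
    [DCoh.HasRpush (pullback.snd f f)] {K : DCoh.D X} (hK : DCoh.IsQCohD K) (c : ℤ) (hc : K.IsGE c)
    (h : Univ (pullback.snd f f) (DCoh.inD X (Coh.structureModule X))
      ((DCoh.Lpull (pullback.fst f f)).obj K)) :
    ∃ ξ : (Dual3.pushD (pullback.diagonal f)).obj (DCoh.inD X (Coh.structureModule X)) ⟶
      (DCoh.Lpull (pullback.fst f f)).obj K, ∀ (M : DCoh.D X) (j : ℤ),
      Function.Bijective fun φ : M ⟶ (DCoh.inD X (Coh.structureModule X))⟦j⟧ =>
        (Dual3.pushD (pullback.diagonal f)).map φ ≫
          ((Dual3.pushD (pullback.diagonal f)).commShiftIso j).hom.app _ ≫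
          (shiftFunctor (DCoh.D (pullback f f)) j).map ξ := by
  have := S3630.result _ _ (pullback.diagonal f)
  have := hasRpush (pullback.diagonal f)
  have h1 := Diag.univ_diagonal f h
  have h2 : ((DCoh.Lpull (pullback.fst f f)).obj K).IsGE c := by
    have h3 : ((PerfB.FlatPull.pullbackD (pullback.fst f f)).obj K).IsGE c :=
      PerfA.ExactD.isGE_map _ _ _
    exact (DerivedCategory.TStructure.t : Triangulated.TStructure _).isGE_of_iso
      ((PerfB.FlatPull.lpullIso (pullback.fst f f)).symm.app _) c
  exact H355.ClosedAll.exists_bijective_of_univ (pullback.diagonal f)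
    (fun m => FlatClosed.pc_push_diagonal f m) c h2 (S1054.result _ _ hK) h1

end Groth.Agent.Dual.H354.Rigid
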