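import Groth.Agent.Dual.H354.Restr

/-!
# Local structure of the right adjoint of `Rf_*`, quasi-compact quasi-separated form

Let `f : X ⟶ S`, `π : P ⟶ S` be qcqs, `K ∈ D^+_QCoh(O_S)`, `M`, `L` the values of the
right adjoints at `K`.  If `j : U ⟶ X`, `l : W ⟶ P` are quasi-compact open immersions and `s : U ⟶ W` is a
closed immersion over `S`, then `M|_U` is the value at `L|_W` of the right adjoint of `s_*`
(`univ_structure`), provided that the two projections of `X ×_S P` and the two closed immersions of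
`U` into the charts have the support property.
-/

set_option autoImplicit false

universe u

open CategoryTheory CategoryTheory.Limits AlgebraicGeometry Pretriangulated

attribute [local instance] HasDerivedCategory.standard

namespace Groth.Agent.Dual.H354.Struct

open Groth.Agent.Dcoh.DerSch Groth.Agent.Ega1.ADualUniv
open Groth.Agent.Ega1.ADualRestrict Groth.Agent.Ega1.ADualOpen
open Groth.Agent.PerfA.Restrict (restrictD)
open Groth.Agent.PerfB.OpenAdj (openAdj)
open Groth.Agent.PerfA.PerfLocal (restrictDComp restrictDCongr)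
open Groth.Agent.LoccohB.AdStruct Groth.Agent.Dual.H354.Restr

variable {X Y Z U : Scheme.{u}}

lemma compactSpace_of_qc (f : X ⟶ Y) [QuasiCompact f] [CompactSpace Y] : CompactSpace X :=
  QuasiCompact.compactSpace_of_compactSpace f

lemma quasiSeparatedSpace_of_qs (f : X ⟶ Y) [QuasiSeparated f] [QuasiSeparatedSpace Y] :
    QuasiSeparatedSpace X :=
  quasiSeparatedSpace_of_quasiSeparated f

section Structure

variable {S P W : Scheme.{u}} [CompactSpace S] [QuasiSeparatedSpace S] (f : X ⟶ S)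
  [QuasiCompact f] [IsSeparated f] (π : P ⟶ S) [QuasiCompact π] [IsSeparated π]
  (j : U ⟶ X) [IsOpenImmersion j] [QuasiCompact j] (l : W ⟶ P) [IsOpenImmersion l]
  [QuasiCompact l] (s : U ⟶ W) [IsClosedImmersion s]
  (hs : s ≫ l ≫ π = j ≫ f)

include hs in
/-- **Local structure of the right adjoint.** -/
theorem univ_structure [DCoh.HasRpush f] [DCoh.HasRpush π] [DCoh.HasRpush s]
    (hp : ∀ [DCoh.HasRpush (pullback.fst f π)], SuppProp (pullback.fst f π))
    (hq : ∀ [DCoh.HasRpush (pullback.snd f π)], SuppProp (pullback.snd f π))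
    (hc₁ : ∀ (s₁ : U ⟶ pullback (pullback.fst f π) j) [IsClosedImmersion s₁] [DCoh.HasRpush s₁],
      s₁ ≫ pullback.snd (pullback.fst f π) j = 𝟙 U → SuppProp s₁)
    (hc₂ : ∀ (s₂ : U ⟶ pullback (pullback.snd f π) l) [IsClosedImmersion s₂] [DCoh.HasRpush s₂],
      s₂ ≫ pullback.snd (pullback.snd f π) l = s → SuppProp s₂)
    {K : DCoh.D S} (hK : DCoh.IsQCohD K) (c : ℤ) (hKc : K.IsGE c)
    {M : DCoh.D X} (hM : Univ f K M) {L : DCoh.D P} (hL : Univ π K L) :
    Univ s ((restrictD l).obj L) ((restrictD j).obj M) := by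
  have hX1 : CompactSpace X := compactSpace_of_qc f
  have hX2 : QuasiSeparatedSpace X := quasiSeparatedSpace_of_qs f
  have hP1 : CompactSpace P := compactSpace_of_qc π
  have hP2 : QuasiSeparatedSpace P := quasiSeparatedSpace_of_qs π
  -- the product
  let Z := pullback f π
  let p : Z ⟶ X := pullback.fst f π
  let q : Z ⟶ P := pullback.snd f π
  have hpq : p ≫ f = q ≫ π := pullback.condition
  have hZ1 : CompactSpace Z := compactSpace_of_qc p
  have hZ2 : QuasiSeparatedSpace Z := quasiSeparatedSpace_of_qs p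
  have := hasRpush p
  have := hasRpush q
  have := hasRpush (p ≫ f)
  have := hasRpush (q ≫ π)
  obtain ⟨T', hT'⟩ := exists_univ p M hM.qcoh
  obtain ⟨T'', hT''⟩ := exists_univ q L hL.qcoh
  obtain ⟨eT⟩ := (Univ.of_eq hpq (Univ.comp' p f hM hT')).unique (Univ.comp' q π hL hT'')
  obtain ⟨cM, hcM⟩ := exists_isGE f hM hK c hKc
  obtain ⟨cL, hcL⟩ := exists_isGE π hL hK c hKc
  obtain ⟨c', hc'⟩ := exists_isGE p hT' hM.qcoh cM hcM
  obtain ⟨c'', hc''⟩ := exists_isGE q hT'' hL.qcoh cL hcL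
  let z : U ⟶ Z := pullback.lift j (s ≫ l) (by rw [Category.assoc, hs])
  have hz₁ : z ≫ p = j := pullback.lift_fst _ _ _
  have hz₂ : z ≫ q = s ≫ l := pullback.lift_snd _ _ _
  -- the first chart
  let W₁ := pullback p j
  let k₁ : W₁ ⟶ Z := pullback.fst p j
  let p₁ : W₁ ⟶ U := pullback.snd p j
  have sq₁ : IsPullback k₁ p₁ p j := IsPullback.of_hasPullback p j
  have := hasRpush p₁
  have h3 : Univ p₁ ((restrictD j).obj M) ((restrictD k₁).obj T') :=
    univ_restrict p hp sq₁ hM.qcoh cM hcM hT'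
  let s₁ : U ⟶ W₁ := pullback.lift z (𝟙 U) (by rw [hz₁, Category.id_comp])
  have hs₁ : s₁ ≫ k₁ = z := pullback.lift_fst _ _ _
  have hs₁' : s₁ ≫ p₁ = 𝟙 U := pullback.lift_snd _ _ _
  have : IsClosedImmersion (s₁ ≫ p₁) := by rw [hs₁']; infer_instance
  have : IsSeparated p₁ := inferInstance
  have : IsClosedImmersion s₁ := IsClosedImmersion.of_comp s₁ p₁
  have := hasRpush s₁
  have := hasRpush (s₁ ≫ p₁)
  have := hasRpush (𝟙 U)
  have hW₁1 : CompactSpace W₁ := compactSpace_of_qc k₁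
  have hW₁2 : QuasiSeparatedSpace W₁ := quasiSeparatedSpace_of_qs k₁
  have hU1 : CompactSpace U := compactSpace_of_qc j
  have hU2 : QuasiSeparatedSpace U := quasiSeparatedSpace_of_qs j
  have hq₁ : DCoh.IsQCohD ((restrictD k₁).obj T') := PerfA.QCohD.isQCohD_restrictD k₁ hT'.qcoh
  obtain ⟨S₁, hS₁⟩ := exists_univ s₁ _ hq₁
  have hqM : DCoh.IsQCohD ((restrictD j).obj M) := PerfA.QCohD.isQCohD_restrictD j hM.qcoh
  obtain ⟨e₁⟩ := (Univ.of_eq hs₁' (Univ.comp' s₁ p₁ h3 hS₁)).unique (Univ.id hqM)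
  -- the second chart
  let W₂ := pullback q l
  let k₂ : W₂ ⟶ Z := pullback.fst q l
  let q₂ : W₂ ⟶ W := pullback.snd q l
  have sq₂ : IsPullback k₂ q₂ q l := IsPullback.of_hasPullback q l
  have := hasRpush q₂
  have h4 : Univ q₂ ((restrictD l).obj L) ((restrictD k₂).obj T'') :=
    univ_restrict q hq sq₂ hL.qcoh cL hcL hT''
  let s₂ : U ⟶ W₂ := pullback.lift z s hz₂
  have hs₂ : s₂ ≫ k₂ = z := pullback.lift_fst _ _ _
  have hs₂' : s₂ ≫ q₂ = s := pullback.lift_snd _ _ _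
  have : IsClosedImmersion (s₂ ≫ q₂) := by rw [hs₂']; infer_instance
  have : IsSeparated q₂ := inferInstance
  have : IsClosedImmersion s₂ := IsClosedImmersion.of_comp s₂ q₂
  have := hasRpush s₂
  have := hasRpush (s₂ ≫ q₂)
  have hW₂1 : CompactSpace W₂ := compactSpace_of_qc k₂
  have hW₂2 : QuasiSeparatedSpace W₂ := quasiSeparatedSpace_of_qs k₂
  have hW1 : CompactSpace W := compactSpace_of_qc l
  have hW2 : QuasiSeparatedSpace W := quasiSeparatedSpace_of_qs l
  have hq₂ : DCoh.IsQCohD ((restrictD k₂).obj T'') := PerfA.QCohD.isQCohD_restrictD k₂ hT''.qcoh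
  obtain ⟨S₂, hS₂⟩ := exists_univ s₂ _ hq₂
  have h5 : Univ s ((restrictD l).obj L) S₂ := Univ.of_eq hs₂' (Univ.comp' s₂ q₂ h4 hS₂)
  -- comparison on the intersection of the two charts
  let W₃ := pullback k₁ k₂
  let m₁ : W₃ ⟶ W₁ := pullback.fst k₁ k₂
  let m₂ : W₃ ⟶ W₂ := pullback.snd k₁ k₂
  have hm : m₁ ≫ k₁ = m₂ ≫ k₂ := pullback.condition
  let t : U ⟶ W₃ := pullback.lift s₁ s₂ (hs₁.trans hs₂.symm)
  have ht₁ : t ≫ m₁ = s₁ := pullback.lift_fst _ _ _
  have ht₂ : t ≫ m₂ = s₂ := pullback.lift_snd _ _ _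
  have := hasRpush t
  have sq₃ : IsPullback (𝟙 U) t s₁ m₁ :=
    IsPullback.of_horiz_isIso_mono ⟨by rw [Category.id_comp, ht₁]⟩
  have sq₄ : IsPullback (𝟙 U) t s₂ m₂ :=
    IsPullback.of_horiz_isIso_mono ⟨by rw [Category.id_comp, ht₂]⟩
  have hc₁' : ((restrictD k₁).obj T').IsGE c' := PerfA.ExactD.isGE_map _ _ _
  have hc₂' : ((restrictD k₂).obj T'').IsGE c'' := PerfA.ExactD.isGE_map _ _ _
  have h6 := univ_restrict s₁ (hc₁ s₁ hs₁') sq₃ hq₁ c' hc₁' hS₁
  have h7 := univ_restrict s₂ (hc₂ s₂ hs₂') sq₄ hq₂ c'' hc₂' hS₂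
  let eW : (restrictD m₁).obj ((restrictD k₁).obj T') ≅ (restrictD m₂).obj ((restrictD k₂).obj T'') :=
    (restrictDComp m₁ k₁).app T' ≪≫ (restrictDCongr hm).app T' ≪≫
      (restrictD (m₂ ≫ k₂)).mapIso eT ≪≫ (restrictDComp m₂ k₂).symm.app T''
  obtain ⟨e₂⟩ := (Univ.of_iso_right h6 eW).unique h7
  exact h5.of_iso_left ((restrictDId U).symm.app S₂ ≪≫ e₂.symm ≪≫ (restrictDId U).app S₁ ≪≫ e₁) hqM

end Structure

end Groth.Agent.Dual.H354.Struct
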